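import Mathlib
import Cfsg.Prelude.Def_Characters
import Cfsg.Agent.Lib.Helper77.GlaubCount2
import Cfsg.Agent.Lib.Helper77.GallRel
import Cfsg.Agent.Lib.Helper5.Inertia
import Cfsg.Agent.Lib.Helper32.CyclicTI4
import Cfsg.Agent.Lib.Helper32.IndAbove
import Cfsg.Agent.Lib.Helper79.ExtCyclicChar
import Cfsg.Agent.S0193

/-!
# Characters of `L = K ⋊ W₁` with `C_K(x) = W₂` for all `x ∈ W₁ \ 1`
-/

set_option autoImplicit false

namespace Cfsg.Agent.Lib.Helper31

open Cfsg Subgroup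
open Cfsg.Agent.Lib.Helper20 Cfsg.Agent.Lib.Helper5

section Gen

variable {L : Type*} [Group L] [Fintype L] (K : Subgroup L) [hK : K.Normal]

/-- sum of all linear characters of a finite abelian group at a non-identity element -/
theorem sum_hom_eq_zero {A : Type*} [Group A] [Finite A] [Fintype (A →* ℂˣ)]
    (hA : ∀ a b : A, a * b = b * a) {x : A} (hx : x ≠ 1) :
    ∑ φ : A →* ℂˣ, ((φ x : ℂˣ) : ℂ) = 0 := by
  classical
  have h := Cfsg.Agent.Lib.Helper32.annSum_of_not_mem hA ⊥ (x := x) (by simpa using hx)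
  rwa [Finset.filter_true_of_mem] at h
  intro φ _ k hk
  rw [Subgroup.mem_bot.1 hk, map_one]

/-- Gallagher for an abelian quotient: the function induced from the restriction of an
irreducible character `E` with irreducible restriction is a sum of `|L : K|` distinct
irreducible characters. -/
theorem ind_eq_sum_gall (hab : ∀ a b : L ⧸ K, a * b = b * a) {E : L → ℂ}
    (hE : IsIrrCharacter L E) (hEK : IsIrrCharacter K (fun k : K => E k)) :
    ∃ C : Finset (L → ℂ), C.card = K.index ∧ (∀ μ ∈ C, IsIrrCharacter L μ) ∧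
      indFun K (fun k : K => E k) = ∑ μ ∈ C, μ := by
  classical
  let _ : Fintype K := Fintype.ofFinite K
  let _ : Fintype (L ⧸ K) := Fintype.ofFinite _
  let _ : Fintype ((L ⧸ K) →* ℂˣ) := Fintype.ofFinite _
  let π : L →* L ⧸ K := QuotientGroup.mk' K
  have hπ : Function.Surjective π := QuotientGroup.mk'_surjective K
  have hker : ∀ t, π t = 1 ↔ t ∈ K := fun t => QuotientGroup.eq_one_iff t
  let F : ((L ⧸ K) →* ℂˣ) → (L → ℂ) := fun l t => E t * ((l (π t) : ℂˣ) : ℂ)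
  have hFinj : Function.Injective F := by
    intro l l' h
    have := Cfsg.Agent.Lib.Helper77.gall_inj K hE hEK π hπ hker
      (Cfsg.Agent.Lib.Helper83.isIrr_of_hom l) (Cfsg.Agent.Lib.Helper83.isIrr_of_hom l') h
    ext y
    exact congrFun this y
  have hcardY : (Fintype.card ((L ⧸ K) →* ℂˣ)) = K.index := by
    rw [← Nat.card_eq_fintype_card, Cfsg.Agent.Lib.Helper32.card_hom_units_of_comm hab]
    rfl
  refine ⟨Finset.univ.image F, ?_, ?_, ?_⟩
  · rw [Finset.card_image_of_injective _ hFinj, Finset.card_univ, hcardY]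
  · intro μ hμ
    obtain ⟨l, -, rfl⟩ := Finset.mem_image.1 hμ
    exact Cfsg.Agent.Lib.Helper77.gall_irr K hE hEK π hπ hker
      (Cfsg.Agent.Lib.Helper83.isIrr_of_hom l)
  · rw [Finset.sum_image (fun a _ b _ h => hFinj h)]
    funext t
    rw [Finset.sum_apply]
    show _ = ∑ l : (L ⧸ K) →* ℂˣ, E t * ((l (π t) : ℂˣ) : ℂ)
    rw [← Finset.mul_sum]
    by_cases ht : t ∈ K
    · have h1 : π t = 1 := (hker t).2 ht
      have hcl := isClassFunction_of_isCharacter (isCharacter_of_isIrrCharacter hE)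
      have h2 := Cfsg.Agent.Lib.Helper32.indFun_normal_apply K (fun k : K => E k) ⟨t, ht⟩
      have h3 : ∀ x : L, (fun k : K => E k) (MulAut.conjNormal x⁻¹ (⟨t, ht⟩ : K)) = E t := by
        intro x
        show E ((MulAut.conjNormal x⁻¹ (⟨t, ht⟩ : K) : K) : L) = E t
        rw [MulAut.conjNormal_apply]
        exact hcl t x⁻¹
      simp only [h3] at h2
      change indFun K (fun k : K => E k) t = _ at h2
      rw [h2, h1]
      simp only [map_one, Units.val_one, Finset.sum_const, Finset.card_univ, nsmul_eq_mul, mul_one,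
        hcardY]
      have h4 : (Fintype.card L : ℂ) = (Nat.card K : ℂ) * (K.index : ℂ) := by
        rw [← Nat.card_eq_fintype_card]
        exact_mod_cast (Subgroup.card_mul_index K).symm
      have h5 : (Nat.card K : ℂ) ≠ 0 := by exact_mod_cast Nat.card_pos.ne'
      rw [h4]
      field_simp
    · rw [Cfsg.Agent.Lib.Helper32.indFun_normal_eq_zero K _ ht,
        sum_hom_eq_zero hab (fun h => ht ((hker t).1 h)), mul_zero]

omit [Fintype L] in
theorem mem_inertia_iff_invUnder (θ : K → ℂ) (z : L) :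
    z ∈ inertia hK θ ↔ Cfsg.Agent.Lib.Helper77.InvUnder K z θ := by
  rw [mem_inertia']
  constructor
  · intro h g g' hg
    have : g' = ⟨z * g * z⁻¹, hK.conj_mem g g.2 z⟩ := Subtype.ext hg
    rw [this]
    exact h g
  · intro h g
    exact h g _ rfl

omit [Fintype L] in
/-- the number of irreducible characters of `K` fixed by an element of coprime order with
abelian centraliser `W₂` in `K`. -/
theorem card_inertia_eq [Finite L] (W₂ : Subgroup L) (y : L) (hcop : (orderOf y).Coprime (Nat.card K))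
    (hC : K ⊓ Subgroup.centralizer ({y} : Set L) = W₂)
    (hcomm : ∀ a ∈ W₂, ∀ b ∈ W₂, a * b = b * a) :
    Nat.card {θ : IrrCharacter K // y ∈ inertia hK (θ : K → ℂ)} = Nat.card W₂ := by
  have h1 := Cfsg.Agent.Lib.Helper77.card_inv_irr_eq K y
    (by rw [Subgroup.normalizer_eq_top]; trivial) hcop W₂ hC.symm
  rw [Nat.card_congr (Equiv.subtypeEquivRight fun θ : IrrCharacter K =>
    mem_inertia_iff_invUnder K (θ : K → ℂ) y), h1]
  symm
  refine Nat.card_congr (Equiv.ofBijective ConjClasses.mk ⟨?_, ConjClasses.mk_surjective⟩)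
  intro a b hab
  rw [ConjClasses.mk_eq_mk_iff_isConj, isConj_iff] at hab
  obtain ⟨c, hc⟩ := hab
  rw [← hc]
  have : c * a = a * c := Subtype.ext (hcomm c c.2 a a.2)
  rw [this, mul_inv_cancel_right]

/-- an irreducible character whose inertia group is `K` induces irreducibly -/
theorem indFun_irr_of_inertia_eq {θ : K → ℂ} (hθ : IsIrrCharacter K θ)
    (hI : inertia hK θ = K) : IsIrrCharacter L (indFun K θ) := by
  rw [isIrrCharacter_iff]
  refine ⟨Cfsg.Agent.Lib.Helper19.isCharacter_indFun K θ (isCharacter_of_isIrrCharacter hθ), ?_⟩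
  have h1 := @Cfsg.Agent.S0193.result L _ _ K hK θ hθ
  have h2 : Nat.card {g : L // ∀ h : K, θ ⟨g * h * g⁻¹, hK.conj_mem h h.2 g⟩ = θ h} =
      Nat.card K := by
    rw [← Nat.card_congr (Equiv.subtypeEquivRight (fun g => mem_inertia' hK θ g))]
    rw [hI]
  rw [h2] at h1
  have h0 : (Nat.card K : ℂ) ≠ 0 := by exact_mod_cast Nat.card_pos.ne'
  exact mul_left_cancel₀ h0 (by rw [h1, mul_one])

end Gen

section Setup

variable {L : Type*} [Group L] [Finite L] {K W₁ W₂ : Subgroup L} [hK : K.Normal]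

theorem comm_of_isCyclic_subgroup {G : Type*} [Group G] {H : Subgroup G} (hH : IsCyclic H) :
    ∀ a ∈ H, ∀ b ∈ H, a * b = b * a := by
  intro a ha b hb
  obtain ⟨g, hg⟩ := hH.exists_generator
  obtain ⟨i, hi⟩ := Subgroup.mem_zpowers_iff.1 (hg ⟨a, ha⟩)
  obtain ⟨j, hj⟩ := Subgroup.mem_zpowers_iff.1 (hg ⟨b, hb⟩)
  have : (⟨a, ha⟩ : H) * ⟨b, hb⟩ = ⟨b, hb⟩ * ⟨a, ha⟩ := by
    rw [← hi, ← hj]
    exact (((Commute.refl g).zpow_left i).zpow_right j).eq
  exact congrArg Subtype.val this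

theorem tp_cardK (hKW₁ : K ⊓ W₁ = ⊥) (hKW₁' : K ⊔ W₁ = ⊤) : Nat.card K = W₁.index := by
  have hc : IsComplement' K W₁ :=
    Subgroup.isComplement'_of_disjoint_and_mul_eq_univ (disjoint_iff.2 hKW₁) (by
      rw [← Subgroup.normal_mul K W₁, hKW₁']; rfl)
  have h1 := hc.card_mul_card
  have h2 := Subgroup.card_mul_index W₁
  rw [← h1, mul_comm] at h2
  exact (Nat.eq_of_mul_eq_mul_right Nat.card_pos h2).symm

theorem tp_index (hKW₁ : K ⊓ W₁ = ⊥) (hKW₁' : K ⊔ W₁ = ⊤) : K.index = Nat.card W₁ := by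
  have h1 := tp_cardK hKW₁ hKW₁'
  have h2 := Subgroup.card_mul_index W₁
  have h3 := Subgroup.card_mul_index K
  rw [← h1, ← h3, mul_comm] at h2
  exact (Nat.eq_of_mul_eq_mul_left Nat.card_pos h2).symm

theorem tp_cop (hKW₁ : K ⊓ W₁ = ⊥) (hKW₁' : K ⊔ W₁ = ⊤)
    (hHall : Nat.Coprime (Nat.card W₁) W₁.index) : (Nat.card W₁).Coprime (Nat.card K) := by
  rw [tp_cardK hKW₁ hKW₁']; exact hHall

omit [Finite L] in
theorem tp_exists_mul (hKW₁' : K ⊔ W₁ = ⊤) (g : L) : ∃ k ∈ K, ∃ w ∈ W₁, g = k * w := by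
  have hgtop : g ∈ K ⊔ W₁ := hKW₁' ▸ Subgroup.mem_top g
  obtain ⟨k, hk, w, hw, rfl⟩ := Subgroup.mem_sup_of_normal_left.mp hgtop
  exact ⟨k, hk, w, hw, rfl⟩

omit [Finite L] in
theorem tp_quot_cyclic (hKW₁' : K ⊔ W₁ = ⊤) (hW₁c : IsCyclic W₁) : IsCyclic (L ⧸ K) := by
  refine isCyclic_of_surjective ((QuotientGroup.mk' K).comp W₁.subtype) ?_
  intro q
  obtain ⟨g, rfl⟩ := QuotientGroup.mk_surjective q
  obtain ⟨k, hk, w, hw, rfl⟩ := tp_exists_mul hKW₁' g
  refine ⟨⟨w, hw⟩, ?_⟩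
  show (QuotientGroup.mk w : L ⧸ K) = QuotientGroup.mk (k * w)
  rw [QuotientGroup.mk_mul, (QuotientGroup.eq_one_iff k).2 hk, one_mul]

omit [Finite L] in
theorem tp_quot_comm (hKW₁' : K ⊔ W₁ = ⊤) (hW₁c : IsCyclic W₁) :
    ∀ a b : L ⧸ K, a * b = b * a := by
  have := tp_quot_cyclic hKW₁' hW₁c
  intro a b
  exact (IsCyclic.commGroup (α := L ⧸ K)).mul_comm a b

/-- an irreducible character of `K` fixed by one non-identity element of `W₁` is fixed by `W₁` -/
theorem tp_inertia (hKW₁ : K ⊓ W₁ = ⊥) (hKW₁' : K ⊔ W₁ = ⊤) (hW₁c : IsCyclic W₁)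
    (hHall : Nat.Coprime (Nat.card W₁) W₁.index) (hW₂c : IsCyclic W₂)
    (hC : ∀ x ∈ W₁, x ≠ 1 → K ⊓ Subgroup.centralizer ({x} : Set L) = W₂)
    {θ : K → ℂ} (hθ : IsIrrCharacter K θ) {y : L} (hy : y ∈ W₁) (hy1 : y ≠ 1)
    (hyθ : y ∈ inertia hK θ) : W₁ ≤ inertia hK θ := by
  classical
  have hfin : Finite (IrrCharacter K) := finite_irrCharacter
  obtain ⟨⟨s, hsW⟩, hs⟩ := hW₁c.exists_generator
  have hz : W₁ ≤ Subgroup.zpowers s := by
    intro z hz
    obtain ⟨i, hi⟩ := Subgroup.mem_zpowers_iff.mp (hs ⟨z, hz⟩)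
    exact Subgroup.mem_zpowers_iff.mpr ⟨i, by simpa using congrArg Subtype.val hi⟩
  have hs1 : s ≠ 1 := by
    rintro rfl
    have := hz hy
    rw [Subgroup.zpowers_one_eq_bot, Subgroup.mem_bot] at this
    exact hy1 this
  have hcopW := tp_cop hKW₁ hKW₁' hHall
  have hcop : ∀ z ∈ W₁, (orderOf z).Coprime (Nat.card K) := fun z hz =>
    Nat.Coprime.coprime_dvd_left (Subgroup.orderOf_dvd_natCard W₁ hz) hcopW
  have hcomm := comm_of_isCyclic_subgroup hW₂c
  have c1 := card_inertia_eq K W₂ s (hcop s hsW) (hC s hsW hs1) hcomm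
  have c2 := card_inertia_eq K W₂ y (hcop y hy) (hC y hy hy1) hcomm
  have hsub : {θ : IrrCharacter K | s ∈ inertia hK (θ : K → ℂ)} ⊆
      {θ : IrrCharacter K | y ∈ inertia hK (θ : K → ℂ)} := by
    intro φ hφ
    have hφ' : s ∈ inertia hK (φ : K → ℂ) := hφ
    exact (Subgroup.zpowers_le.2 hφ') (hz hy)
  have heq := Set.eq_of_subset_of_ncard_le hsub (by
    rw [← Nat.card_coe_set_eq, ← Nat.card_coe_set_eq]
    exact (c2.trans c1.symm).le) (Set.toFinite _)
  have hmem : (⟨θ, hθ⟩ : IrrCharacter K) ∈ {θ : IrrCharacter K | s ∈ inertia hK (θ : K → ℂ)} := by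
    rw [heq]; exact hyθ
  exact hz.trans (Subgroup.zpowers_le.2 hmem)

end Setup

end Cfsg.Agent.Lib.Helper31
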